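import Mathlib

/-!
# S5733, BS05: counting in a finite field extension

`L / F` finite fields, `d = [L : F]`, `q = |F|`.

* `card_nongen_le` : at most `∑ e ∈ [1, d/2], (q ^ e - 1)` units do not generate `L` over `F`;
* `card_norm_mul` : the number of units of given norm;
* `card_twist_le` : at most `3 + s`, `s² ≤ |L|`, generators `t` satisfy `τ t = t⁻¹` for an involution `τ` of `L`.
-/

set_option autoImplicit false

namespace Cfsg.Agent.H46.Bs

section Count

theorem card_pow_eq_one_le (L : Type*) [Field L] (k : ℕ) (hk : 0 < k) : Nat.card {t : Lˣ // t ^ k = 1} ≤ k := by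
  have : NeZero k := ⟨hk.ne'⟩
  exact _root_.card_rootsOfUnity L k

variable (F L : Type*) [Field F] [Field L] [Algebra F L] [Finite L]

open Classical in
/-- the units which do not generate -/
theorem nongen {t : Lˣ} (ht : Algebra.adjoin F {(t : L)} ≠ ⊤) :
    ∃ e ∈ Finset.Icc 1 (Module.finrank F L / 2), t ^ (Nat.card F ^ e - 1) = 1 := by
  have hfF : Finite F := Finite.of_injective (algebraMap F L) (algebraMap F L).injective
  have hfin : Module.Finite F L := Module.Finite.of_finite
  set K := IntermediateField.adjoin F {(t : L)} with hK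
  have hsub : K.toSubalgebra = Algebra.adjoin F {(t : L)} :=
    IntermediateField.adjoin_simple_toSubalgebra_of_isAlgebraic (IsAlgebraic.of_finite F _)
  have hne : K ≠ ⊤ := by
    intro h
    apply ht
    rw [← hsub, h, IntermediateField.top_toSubalgebra]
  have hmul := Module.finrank_mul_finrank F K L
  have hKL : Module.finrank K L ≠ 1 := by
    intro h
    apply hne
    exact IntermediateField.finrank_eq_one_iff_eq_top.1 h
  have hKL0 : 0 < Module.finrank K L := Module.finrank_pos
  have hFK0 : 0 < Module.finrank F K := Module.finrank_pos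
  refine ⟨Module.finrank F K, Finset.mem_Icc.2 ⟨hFK0, ?_⟩, ?_⟩
  · rw [Nat.le_div_iff_mul_le (by norm_num), ← hmul]
    exact Nat.mul_le_mul_left _ (by omega)
  · have hcard : Nat.card K = Nat.card F ^ Module.finrank F K := Module.natCard_eq_pow_finrank
    have htK : (t : L) ∈ K := IntermediateField.mem_adjoin_simple_self F _
    have : Fintype K := Fintype.ofFinite K
    have h1 := FiniteField.pow_card_sub_one_eq_one (⟨(t : L), htK⟩ : K) (fun h => t.ne_zero (congrArg Subtype.val h))
    rw [← Nat.card_eq_fintype_card, hcard] at h1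
    have h2 := congrArg Subtype.val h1
    ext
    simpa using h2

theorem card_nongen_le : Nat.card {t : Lˣ // Algebra.adjoin F {(t : L)} ≠ ⊤} ≤
    ∑ e ∈ Finset.Icc 1 (Module.finrank F L / 2), (Nat.card F ^ e - 1) := by
  classical
  have hfF : Finite F := Finite.of_injective (algebraMap F L) (algebraMap F L).injective
  have hq : 1 < Nat.card F := Finite.one_lt_card
  have : Fintype Lˣ := Fintype.ofFinite _
  have h1 : Nat.card {t : Lˣ // Algebra.adjoin F {(t : L)} ≠ ⊤} =
      (Finset.univ.filter fun t : Lˣ => Algebra.adjoin F {(t : L)} ≠ ⊤).card := by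
    rw [Nat.card_eq_fintype_card, Fintype.card_subtype]
  rw [h1]
  calc _ ≤ ((Finset.Icc 1 (Module.finrank F L / 2)).biUnion
        fun e => Finset.univ.filter fun t : Lˣ => t ^ (Nat.card F ^ e - 1) = 1).card := by
        apply Finset.card_le_card
        intro t ht
        rw [Finset.mem_filter] at ht
        obtain ⟨e, he, h2⟩ := nongen F L ht.2
        exact Finset.mem_biUnion.2 ⟨e, he, Finset.mem_filter.2 ⟨Finset.mem_univ _, h2⟩⟩
    _ ≤ ∑ e ∈ Finset.Icc 1 (Module.finrank F L / 2), (Finset.univ.filter fun t : Lˣ => t ^ (Nat.card F ^ e - 1) = 1).card :=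
        Finset.card_biUnion_le
    _ ≤ _ := by
        apply Finset.sum_le_sum
        intro e he
        rw [Finset.mem_Icc] at he
        have h3 := card_pow_eq_one_le L (Nat.card F ^ e - 1) (Nat.sub_pos_of_lt (Nat.one_lt_pow (by omega) hq))
        rwa [Nat.card_eq_fintype_card, Fintype.card_subtype] at h3

/-- the number of generators with a property -/
theorem card_le_gen (P : Lˣ → Prop) : Nat.card {t : Lˣ // P t} ≤
    Nat.card {t : Lˣ // Algebra.adjoin F {(t : L)} = ⊤ ∧ P t} +
      ∑ e ∈ Finset.Icc 1 (Module.finrank F L / 2), (Nat.card F ^ e - 1) := by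
  classical
  refine le_trans ?_ (Nat.add_le_add_left (card_nongen_le F L) _)
  have : Fintype Lˣ := Fintype.ofFinite _
  simp only [Nat.card_eq_fintype_card, Fintype.card_subtype]
  rw [← Finset.card_union_of_disjoint]
  · apply Finset.card_le_card
    intro t ht
    rw [Finset.mem_filter] at ht
    rw [Finset.mem_union, Finset.mem_filter, Finset.mem_filter]
    by_cases h : Algebra.adjoin F {(t : L)} = ⊤
    · exact Or.inl ⟨Finset.mem_univ _, h, ht.2⟩
    · exact Or.inr ⟨Finset.mem_univ _, h⟩
  · rw [Finset.disjoint_filter]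
    intro t _ h1 h2
    exact h2 h1.1

theorem card_norm_mul (κ : F) (hκ : κ ≠ 0) : Nat.card {t : Lˣ // Algebra.norm F (t : L) = κ} * (Nat.card F - 1) =
    Nat.card Lˣ := by
  classical
  have hfF : Finite F := Finite.of_injective (algebraMap F L) (algebraMap F L).injective
  set f : Lˣ →* Fˣ := Units.map (Algebra.norm F (S := L)) with hf
  have hs : Function.Surjective f := FiniteField.unitsMap_norm_surjective F L
  have h1 : Nat.card {t : Lˣ // Algebra.norm F (t : L) = κ} = Nat.card f.ker := by
    apply Nat.card_congr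
    refine Equiv.trans (Equiv.subtypeEquivRight ?_) (MonoidHom.fiberEquivKerOfSurjective hs (Units.mk0 κ hκ))
    intro t
    rw [Set.mem_preimage, Set.mem_singleton_iff, Units.ext_iff]
    rfl
  have h2 : Nat.card f.ker * Nat.card f.range = Nat.card Lˣ := by
    rw [← Subgroup.index_ker f]
    exact Subgroup.card_mul_index _
  rw [h1, ← h2, MonoidHom.range_eq_top.2 hs, Subgroup.card_top, Nat.card_units]

/-- A ring endomorphism `τ` of a finite field with `τ² = 1` -/
theorem exists_root_of_invol (L : Type*) [Field L] [Finite L] : ∃ s : ℕ, s ^ 2 ≤ Nat.card L ∧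
    ∀ τ : L →+* L, (∀ x, τ (τ x) = x) → ∀ t : Lˣ, τ t = (t : L)⁻¹ → t ^ 2 = 1 ∨ t ^ (s + 1) = 1 := by
  classical
  set p := ringChar L with hp
  have hpp : Fact p.Prime := ⟨CharP.char_is_prime L p⟩
  let _ := ZMod.algebra L p
  have hfL : Fintype L := Fintype.ofFinite L
  set N := Module.finrank (ZMod p) L with hN
  have hN0 : 0 < N := Module.finrank_pos
  have hcard : Nat.card L = p ^ N := by
    have h0 : Nat.card L = Nat.card (ZMod p) ^ N := Module.natCard_eq_pow_finrank
    rwa [Nat.card_zmod] at h0
  have hp1 : 1 < p := hpp.1.one_lt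
  refine ⟨p ^ (N / 2), ?_, ?_⟩
  · rw [hcard, ← pow_mul]
    exact Nat.pow_le_pow_right (by omega) (Nat.div_mul_le_self _ _)
  · intro τ hτ t ht
    let τ₁ : L ≃ₐ[ZMod p] L := AlgEquiv.ofRingEquiv (f := RingEquiv.ofBijective τ
      (Finite.injective_iff_bijective.1 τ.injective)) (fun r => by
        show τ (algebraMap (ZMod p) L r) = algebraMap (ZMod p) L r
        exact RingHom.congr_fun (Subsingleton.elim (τ.comp (algebraMap (ZMod p) L)) (algebraMap (ZMod p) L)) r)
    obtain ⟨⟨i, hi⟩, hi'⟩ := (FiniteField.bijective_frobeniusAlgEquivOfAlgebraic_pow (ZMod p) L).2 τ₁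
    have hτi : ∀ x, τ x = x ^ (p ^ i) := by
      intro x
      have h1 : τ₁ x = τ x := rfl
      rw [← h1, ← hi']
      show (FiniteField.frobeniusAlgEquivOfAlgebraic (ZMod p) L ^ i) x = _
      rw [AlgEquiv.coe_pow, FiniteField.coe_frobeniusAlgEquivOfAlgebraic_iterate, ZMod.card]
    have hτ1 : τ₁ ^ 2 = 1 := by
      ext x
      rw [pow_two]
      exact hτ x
    have hord : N ∣ i * 2 := by
      rw [hN, ← FiniteField.orderOf_frobeniusAlgEquivOfAlgebraic (ZMod p) L, orderOf_dvd_iff_pow_eq_one, pow_mul]
      have h2 : FiniteField.frobeniusAlgEquivOfAlgebraic (ZMod p) L ^ i = τ₁ := hi'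
      rw [h2, hτ1]
    obtain ⟨c, hc⟩ := hord
    have hi2 : i * 2 < N * 2 := Nat.mul_lt_mul_of_pos_right hi (by norm_num)
    have hc2 : c < 2 := by
      rw [hc] at hi2
      exact Nat.lt_of_mul_lt_mul_left hi2
    have htt : t ^ (p ^ i + 1) = 1 := by
      ext
      rw [Units.val_pow_eq_pow_val, pow_succ, ← hτi, ht, inv_mul_cancel₀ t.ne_zero]
      rfl
    interval_cases c
    · left
      have : i = 0 := by omega
      rw [this] at htt
      simpa using htt
    · right
      have : i = N / 2 := by omega
      rwa [this] at htt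

end Count

end Cfsg.Agent.H46.Bs
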