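import Cfsg.Agent.H46.Bs.Singer
import Cfsg.Agent.H46.Bs.FieldCount

/-!
# S5733, BS05: block counts in `GL(V)`

* `gl_irr` : at least `ar d / d |GL(V)|` elements are irreducible;
* `gl_irr_det` : `|GL(V)| ≤ 4 d (q - 1) |{x irreducible of determinant κ}|` (`8 ≤ d`);
* `gl_irr_ns` : at least `ar d / d |GL(V)|` elements are irreducible and not conjugate to the `σ`-twisted inverse.
-/

set_option autoImplicit false

namespace Cfsg.Agent.H46.Bs

open Cfsg.Agent.H847.Bs Polynomial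

section Tools

variable {F V L : Type*} [Field F] [AddCommGroup V] [Module F V] [Field L] [Algebra F L] (e : V ≃ₗ[F] L)

theorem mu_eq_conj (t : Lˣ) : (mu e t : V →ₗ[F] V) = e.symm.conj (Algebra.lmul F L (t : L)) := by
  ext v
  apply e.injective
  simp [LinearEquiv.conj_apply]

theorem det_mu (t : Lˣ) : LinearMap.det (mu e t : V →ₗ[F] V) = Algebra.norm F (t : L) := by
  rw [mu_eq_conj, LinearEquiv.conj_apply, LinearMap.comp_assoc, LinearMap.det_conj]
  rfl

theorem aeval_mu (t : Lˣ) (f : F[X]) : Polynomial.aeval (mu e t : V →ₗ[F] V) f =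
    e.symm.conj (Algebra.lmul F L (Polynomial.aeval (t : L) f)) := by
  rw [mu_eq_conj, ← Polynomial.aeval_algHom_apply (Algebra.lmul F L)]
  have h : ∀ g : Module.End F L, e.symm.conj g = (LinearEquiv.conjAlgEquiv F e.symm : _ →ₐ[F] _) g := fun _ => rfl
  rw [h, h, Polynomial.aeval_algHom_apply]

theorem aeval_mu_eq_zero {t : Lˣ} {f : F[X]} (h : Polynomial.aeval (mu e t : V →ₗ[F] V) f = 0) :
    Polynomial.aeval (t : L) f = 0 := by
  rw [aeval_mu] at h
  have h1 : Algebra.lmul F L (Polynomial.aeval (t : L) f) = 0 := by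
    apply e.symm.conj.injective
    rw [h, map_zero]
  have h2 := LinearMap.congr_fun h1 1
  simpa using h2

end Tools

section Twist

variable {F L : Type*} [Field F] [Field L] [Algebra F L] [Finite L]

theorem adjoin_inv {t : Lˣ} (ht : Algebra.adjoin F {(t : L)} = ⊤) : Algebra.adjoin F {((t⁻¹ : Lˣ) : L)} = ⊤ := by
  have hfin : Module.Finite F L := Module.Finite.of_finite
  have h1 : (IntermediateField.adjoin F {((t⁻¹ : Lˣ) : L)}).toSubalgebra = Algebra.adjoin F {((t⁻¹ : Lˣ) : L)} :=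
    IntermediateField.adjoin_simple_toSubalgebra_of_isAlgebraic (IsAlgebraic.of_finite F _)
  rw [← h1, eq_top_iff, ← ht]
  apply Algebra.adjoin_le
  intro x hx
  rw [Set.mem_singleton_iff] at hx
  rw [hx]
  show (t : L) ∈ IntermediateField.adjoin F {((t⁻¹ : Lˣ) : L)}
  have h2 := inv_mem (IntermediateField.mem_adjoin_simple_self F ((t⁻¹ : Lˣ) : L))
  simpa using h2

theorem natDegree_minpoly {t : Lˣ} (ht : Algebra.adjoin F {(t : L)} = ⊤) :
    (minpoly F (t : L)).natDegree = Module.finrank F L := by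
  have hfin : Module.Finite F L := Module.Finite.of_finite
  have h1 : (IntermediateField.adjoin F {(t : L)}).toSubalgebra = Algebra.adjoin F {(t : L)} :=
    IntermediateField.adjoin_simple_toSubalgebra_of_isAlgebraic (IsAlgebraic.of_finite F _)
  have h2 : IntermediateField.adjoin F {(t : L)} = ⊤ := by
    rw [← IntermediateField.toSubalgebra_inj, h1, ht, IntermediateField.top_toSubalgebra]
  rw [← IntermediateField.adjoin.finrank (IsIntegral.of_finite F (t : L)), h2, IntermediateField.finrank_top']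

/-- the twisting endomorphism -/
theorem exists_tau (σ : F →+* F) (hσ : ∀ a, σ (σ a) = a) {t : Lˣ} (ht : Algebra.adjoin F {(t : L)} = ⊤)
    {f : F[X]} (hf : f.Monic) (hdeg : f.natDegree ≤ Module.finrank F L)
    (h1 : Polynomial.aeval ((t⁻¹ : Lˣ) : L) f = 0) (h2 : Polynomial.aeval (t : L) (f.map σ) = 0) :
    ∃ τ : L →+* L, (∀ x, τ (τ x) = x) ∧ τ t = (t : L)⁻¹ := by
  have hfin : Module.Finite F L := Module.Finite.of_finite
  set u : L := ((t⁻¹ : Lˣ) : L) with hu
  have hut : u = (t : L)⁻¹ := Units.val_inv_eq_inv_val t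
  have hui : IsIntegral F u := IsIntegral.of_finite F u
  have hadj := adjoin_inv ht
  have hdm : (minpoly F u).natDegree = Module.finrank F L := natDegree_minpoly hadj
  have hfeq : minpoly F u = f := by
    apply Polynomial.eq_of_monic_of_associated (minpoly.monic hui) hf
    apply Polynomial.associated_of_dvd_of_natDegree_le (minpoly.dvd F u h1) hf.ne_zero
    rw [hdm]
    exact hdeg
  have hirr : Fact (Irreducible f) := ⟨hfeq ▸ minpoly.irreducible hui⟩
  -- `L = F[X] / (f)`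
  let α : AdjoinRoot f →ₐ[F] L := AdjoinRoot.liftAlgHom f (Algebra.ofId F L) u (by
    rw [Polynomial.aeval_def] at h1
    exact h1)
  have hαr : α (AdjoinRoot.root f) = u := AdjoinRoot.liftAlgHom_root _ _ _ _
  have hαs : Function.Surjective α := by
    rw [← AlgHom.range_eq_top, eq_top_iff, ← hadj]
    apply Algebra.adjoin_le
    intro x hx
    rw [Set.mem_singleton_iff] at hx
    rw [hx]
    exact ⟨AdjoinRoot.root f, hαr⟩
  have hαi : Function.Injective α := α.toRingHom.injective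
  let β : AdjoinRoot f ≃ₐ[F] L := AlgEquiv.ofBijective α ⟨hαi, hαs⟩
  have hβ : β.symm u = AdjoinRoot.root f := by
    rw [AlgEquiv.symm_apply_eq]
    exact hαr.symm
  have h3 : f.eval₂ ((algebraMap F L).comp σ) (t : L) = 0 := by
    rw [Polynomial.aeval_def, Polynomial.eval₂_map] at h2
    exact h2
  let τ : L →+* L := (AdjoinRoot.lift ((algebraMap F L).comp σ) (t : L) h3).comp (β.symm : L →+* AdjoinRoot f)
  have hτu : τ u = t := by
    show AdjoinRoot.lift ((algebraMap F L).comp σ) (t : L) h3 (β.symm u) = t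
    rw [hβ, AdjoinRoot.lift_root]
  have hτF : ∀ a : F, τ (algebraMap F L a) = algebraMap F L (σ a) := by
    intro a
    show AdjoinRoot.lift ((algebraMap F L).comp σ) (t : L) h3 (β.symm (algebraMap F L a)) = _
    rw [AlgEquiv.commutes]
    exact AdjoinRoot.lift_of h3
  have hτt : τ t = (t : L)⁻¹ := by
    have h4 : (t : L) = u⁻¹ := by rw [hut, inv_inv]
    rw [← hut]
    nth_rw 1 [h4]
    rw [map_inv₀, hτu, hut]
  refine ⟨τ, ?_, hτt⟩
  intro x
  have hx : x ∈ Algebra.adjoin F {(t : L)} := by rw [ht]; exact Algebra.mem_top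
  induction hx using Algebra.adjoin_induction with
  | mem x hx =>
    rw [Set.mem_singleton_iff] at hx
    rw [hx, hτt, ← hut, hτu]
  | algebraMap r => rw [hτF, hτF, hσ]
  | add x y _ _ hx hy => rw [map_add, map_add, hx, hy]
  | mul x y _ _ hx hy => rw [map_mul, map_mul, hx, hy]

end Twist

section Main

variable {F V : Type*} [Field F] [Finite F] [AddCommGroup V] [Module F V] [Module.Finite F V]

/-- the Singer field -/
theorem exists_singer (F V : Type*) [Field F] [Finite F] [AddCommGroup V] [Module F V] [Module.Finite F V]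
    (hd : 1 ≤ Module.finrank F V) : ∃ (L : Type) (_ : Field L) (_ : Algebra F L) (_ : Finite L),
      Nonempty (V ≃ₗ[F] L) ∧ Module.finrank F L = Module.finrank F V := by
  classical
  obtain ⟨p, hp⟩ := CharP.exists F
  have hpp : Fact p.Prime := ⟨CharP.char_is_prime F p⟩
  have hn : NeZero (Module.finrank F V) := ⟨by omega⟩
  refine ⟨FiniteField.Extension F p (Module.finrank F V), inferInstance, inferInstance, inferInstance, ?_, ?_⟩
  · exact ⟨LinearEquiv.ofFinrankEq _ _ (FiniteField.finrank_extension F p _).symm⟩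
  · exact FiniteField.finrank_extension F p _

omit [Finite F] [Module.Finite F V] in
theorem irr_conj {x : V ≃ₗ[F] V} (g : V ≃ₗ[F] V) (h : Irr x ⊤) : Irr (g * x * g⁻¹) ⊤ := by
  refine ⟨fun _ _ => Submodule.mem_top, h.ne_bot, fun Y _ hY => ?_⟩
  have h1 : Inv x (Y.comap (g : V →ₗ[F] V)) := by
    intro v hv
    have h2 : g v ∈ Y := hv
    have h3 := hY _ h2
    have h4 : (g * x * g⁻¹) (g v) = g (x v) := by
      rw [LinearEquiv.mul_apply, LinearEquiv.mul_apply]
      have : g⁻¹ (g v) = v := g.symm_apply_apply v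
      rw [this]
    rw [h4] at h3
    exact h3
  have hsurj : ∀ v, ∃ w, g w = v := g.surjective
  rcases h.min _ le_top h1 with h2 | h2
  · left
    rw [eq_bot_iff]
    intro v hv
    obtain ⟨w, rfl⟩ := hsurj v
    have h3 : w ∈ Y.comap (g : V →ₗ[F] V) := hv
    rw [h2, Submodule.mem_bot] at h3
    rw [h3, map_zero]
    exact Submodule.zero_mem _
  · right
    rw [eq_top_iff]
    intro v _
    obtain ⟨w, rfl⟩ := hsurj v
    have h3 : w ∈ Y.comap (g : V →ₗ[F] V) := by rw [h2]; exact Submodule.mem_top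
    exact h3

omit [Finite F] [Module.Finite F V] in
theorem coe_conj (g x : V ≃ₗ[F] V) : ((g * x * g⁻¹ : V ≃ₗ[F] V) : V →ₗ[F] V) = g.conj (x : V →ₗ[F] V) := rfl

theorem geom_le (q m : ℕ) (hq : 2 ≤ q) : (q - 1) * (∑ e ∈ Finset.Icc 1 m, (q ^ e - 1)) ≤ q ^ (m + 1) := by
  induction m with
  | zero => simp
  | succ m ih =>
    rw [Finset.sum_Icc_succ_top (by omega), mul_add]
    have h1 : (q - 1) * (q ^ (m + 1) - 1) ≤ (q - 1) * q ^ (m + 1) := Nat.mul_le_mul_left _ (Nat.sub_le _ _)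
    have h2 : q ^ (m + 1) + (q - 1) * q ^ (m + 1) = q ^ (m + 1 + 1) := by
      obtain ⟨k, rfl⟩ : ∃ k, q = k + 1 := ⟨q - 1, by omega⟩
      rw [Nat.add_sub_cancel, pow_succ (k + 1) (m + 1)]
      ring
    omega

/-- irreducible elements of given determinant -/
theorem gl_irr_det (F V : Type*) [Field F] [Finite F] [AddCommGroup V] [Module F V] [Module.Finite F V] {d : ℕ}
    (hd : Module.finrank F V = d) (h8 : 8 ≤ d) (κ : F) (hκ : κ ≠ 0) :
    Nat.card (V ≃ₗ[F] V) ≤ 4 * d * (Nat.card F - 1) *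
      Nat.card {x : V ≃ₗ[F] V // Irr x ⊤ ∧ LinearMap.det (x : V →ₗ[F] V) = κ} := by
  obtain ⟨L, _, _, _, ⟨e⟩, hfr⟩ := exists_singer F V (by omega)
  have hfin : Module.Finite F L := Module.Finite.of_finite
  have hmain := card_mul_le e (fun x => Irr x ⊤ ∧ LinearMap.det (x : V →ₗ[F] V) = κ) (by
    rintro g x ⟨h1, h2⟩
    refine ⟨irr_conj g h1, ?_⟩
    rw [coe_conj, LinearEquiv.conj_apply, LinearMap.comp_assoc, LinearMap.det_conj]
    exact h2)
  rw [hfr, hd] at hmain
  have hE : Nat.card {t : Lˣ // Algebra.adjoin F {(t : L)} = ⊤ ∧ Irr (mu e t) ⊤ ∧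
      LinearMap.det (mu e t : V →ₗ[F] V) = κ} =
      Nat.card {t : Lˣ // Algebra.adjoin F {(t : L)} = ⊤ ∧ Algebra.norm F (t : L) = κ} := by
    apply Nat.card_congr
    apply Equiv.subtypeEquivRight
    intro t
    rw [det_mu]
    exact ⟨fun h => ⟨h.1, h.2.2⟩, fun h => ⟨h.1, irr_mu e h.1, h.2⟩⟩
  rw [hE] at hmain
  have hq : 1 < Nat.card F := Finite.one_lt_card
  set q := Nat.card F with hqdef
  have hgen := card_le_gen F L (fun t : Lˣ => Algebra.norm F (t : L) = κ)
  have hnorm := card_norm_mul F L κ hκ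
  rw [hfr, hd] at hgen
  rw [← hqdef] at hgen hnorm
  set A := Nat.card {t : Lˣ // Algebra.norm F (t : L) = κ} with hA
  set B := Nat.card {t : Lˣ // Algebra.adjoin F {(t : L)} = ⊤ ∧ Algebra.norm F (t : L) = κ} with hB
  set S := ∑ e ∈ Finset.Icc 1 (d / 2), (q ^ e - 1) with hS
  set T := Nat.card Lˣ with hT
  set I := Nat.card {x : V ≃ₗ[F] V // Irr x ⊤ ∧ LinearMap.det (x : V →ₗ[F] V) = κ} with hI
  set G := Nat.card (V ≃ₗ[F] V) with hG
  have hTcard : T = q ^ d - 1 := by
    rw [hT, Nat.card_units, Module.natCard_eq_pow_finrank (K := F) (V := L), hfr, hd]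
  have hgeom : (q - 1) * S ≤ q ^ (d / 2 + 1) := geom_le q (d / 2) hq
  have hpow : 8 * q ^ (d / 2 + 1) ≤ q ^ d := by
    have h1 : q ^ d = q ^ (d - (d / 2 + 1)) * q ^ (d / 2 + 1) := by
      rw [← pow_add]
      congr 1
      omega
    rw [h1]
    apply Nat.mul_le_mul_right
    calc 8 = 2 ^ 3 := by norm_num
      _ ≤ q ^ 3 := Nat.pow_le_pow_left hq 3
      _ ≤ q ^ (d - (d / 2 + 1)) := Nat.pow_le_pow_right (by omega) (by omega)
  have hpos : 0 < q ^ (d / 2 + 1) := pow_pos (by omega) _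
  have h4 : T ≤ 4 * (q - 1) * B := by
    have h5 : A * (q - 1) ≤ (B + S) * (q - 1) := Nat.mul_le_mul_right _ hgen
    rw [hnorm, add_mul, mul_comm S] at h5
    have h6 : 4 * (q - 1) * B = 4 * (B * (q - 1)) := by ring
    rw [h6]
    omega
  have hT0 : 0 < T := by omega
  -- conclusion
  apply Nat.le_of_mul_le_mul_left _ hT0
  calc T * G ≤ (4 * (q - 1) * B) * G := Nat.mul_le_mul_right _ h4
    _ = 4 * (q - 1) * (G * B) := by ring
    _ ≤ 4 * (q - 1) * (d * T * I) := Nat.mul_le_mul_left _ hmain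
    _ = T * (4 * d * (q - 1) * I) := by ring

omit [Finite F] in
/-- the number of bad generators of the Singer cycle -/
theorem card_bad_le {L : Type*} [Field L] [Algebra F L] [Finite L] (e : V ≃ₗ[F] L)
    (σ : F →+* F) (hσ : ∀ a, σ (σ a) = a) :
    ∃ s : ℕ, s ^ 2 ≤ Nat.card L ∧ Nat.card {t : Lˣ // Algebra.adjoin F {(t : L)} = ⊤ ∧
      LinearMap.charpoly (mu e t : V →ₗ[F] V) = (LinearMap.charpoly ((mu e t)⁻¹ : V ≃ₗ[F] V).toLinearMap).map σ} ≤ s + 3 := by
  classical
  obtain ⟨s, hs, hroot⟩ := exists_root_of_invol L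
  refine ⟨s, hs, ?_⟩
  have : Fintype Lˣ := Fintype.ofFinite _
  rw [Nat.card_eq_fintype_card, Fintype.card_subtype]
  have h2 := card_pow_eq_one_le L 2 (by norm_num)
  have h3 := card_pow_eq_one_le L (s + 1) (by omega)
  rw [Nat.card_eq_fintype_card, Fintype.card_subtype] at h2 h3
  calc _ ≤ ((Finset.univ.filter fun t : Lˣ => t ^ 2 = 1) ∪ Finset.univ.filter fun t : Lˣ => t ^ (s + 1) = 1).card := by
        apply Finset.card_le_card
        intro t ht
        rw [Finset.mem_filter] at ht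
        obtain ⟨_, ht1, ht2⟩ := ht
        rw [mu_inv] at ht2
        have hfr : Module.finrank F L = Module.finrank F V := e.symm.finrank_eq
        obtain ⟨τ, hτ1, hτ2⟩ := exists_tau σ hσ ht1 (LinearMap.charpoly_monic (mu e t⁻¹ : V →ₗ[F] V))
          (by rw [LinearMap.charpoly_natDegree, hfr])
          (aeval_mu_eq_zero e (LinearMap.aeval_self_charpoly _))
          (by
            rw [← ht2]
            exact aeval_mu_eq_zero e (LinearMap.aeval_self_charpoly _))
        rw [Finset.mem_union, Finset.mem_filter, Finset.mem_filter]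
        rcases hroot τ hτ1 t hτ2 with h | h
        · exact Or.inl ⟨Finset.mem_univ _, h⟩
        · exact Or.inr ⟨Finset.mem_univ _, h⟩
    _ ≤ _ := Finset.card_union_le _ _
    _ ≤ s + 3 := by omega

theorem real_ineq (q d s : ℕ) (hq : 2 ≤ q) (hd : 1 ≤ d) (hs : s ^ 2 ≤ q ^ d) :
    (2 * q ^ (d / 2) + s + 3 : ℝ) ≤ 16 * (4 / 5 : ℝ) ^ d * (q ^ d - 1) := by
  have hq' : (2 : ℝ) ≤ q := by exact_mod_cast hq
  set Q : ℝ := (q : ℝ) ^ d with hQ
  set A : ℝ := (4 / 5 : ℝ) ^ d * Q with hA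
  have hQ2 : 2 ≤ Q := by
    calc (2 : ℝ) = 2 ^ 1 := by norm_num
      _ ≤ 2 ^ d := pow_le_pow_right₀ (by norm_num) hd
      _ ≤ Q := pow_le_pow_left₀ (by norm_num) hq' d
  have hA0 : 0 ≤ A := by positivity
  have hAsq : Q ≤ A ^ 2 := by
    have h1 : A ^ 2 = ((16 / 25 : ℝ) * q * q) ^ d := by
      rw [hA, hQ, mul_pow, ← pow_mul, ← pow_mul, mul_comm d 2, pow_mul, pow_mul, ← mul_pow]
      congr 1
      ring
    rw [h1, hQ]
    apply pow_le_pow_left₀ (by positivity)
    nlinarith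
  have hle : ∀ x : ℝ, 0 ≤ x → x ^ 2 ≤ Q → x ≤ A := fun x hx h => by
    exact (sq_le_sq₀ hx hA0).1 (h.trans hAsq)
  have h1 : (1 : ℝ) ≤ A := hle 1 (by norm_num) (by linarith)
  have h2 : (s : ℝ) ≤ A := hle s (by positivity) (by rw [hQ]; exact_mod_cast hs)
  have h3 : (q : ℝ) ^ (d / 2) ≤ A := by
    apply hle _ (by positivity)
    rw [← pow_mul, hQ]
    exact pow_le_pow_right₀ (by linarith) (Nat.div_mul_le_self _ _)
  have h4 : 16 * (4 / 5 : ℝ) ^ d * (Q - 1) = 16 * A - 16 * (4 / 5 : ℝ) ^ d := by rw [hA]; ring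
  have h5 : 16 * (4 / 5 : ℝ) ^ d ≤ 8 * A := by
    rw [hA]
    have : 0 ≤ (4 / 5 : ℝ) ^ d := by positivity
    nlinarith
  rw [h4]
  linarith

theorem geom_le' (q m : ℕ) (hq : 2 ≤ q) : (∑ e ∈ Finset.Icc 1 m, (q ^ e - 1)) ≤ 2 * q ^ m := by
  induction m with
  | zero => simp
  | succ m ih =>
    rw [Finset.sum_Icc_succ_top (by omega)]
    have h2 : 2 * q ^ m ≤ q ^ (m + 1) := by
      rw [pow_succ, mul_comm]
      exact Nat.mul_le_mul_left _ hq
    omega

/-- irreducible elements which are not conjugate to the twisted inverse -/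
theorem gl_irr_ns (F V : Type*) [Field F] [Finite F] [AddCommGroup V] [Module F V] [Module.Finite F V] {d : ℕ}
    (hd : Module.finrank F V = d) (h1 : 1 ≤ d) (σ : F →+* F) (hσ : ∀ a, σ (σ a) = a) :
    ar d / d * Nat.card (V ≃ₗ[F] V) ≤ Nat.card {x : V ≃ₗ[F] V // Irr x ⊤ ∧
      LinearMap.charpoly (x : V →ₗ[F] V) ≠ (LinearMap.charpoly (x⁻¹ : V ≃ₗ[F] V).toLinearMap).map σ} := by
  classical
  obtain ⟨L, _, _, _, ⟨e⟩, hfr⟩ := exists_singer F V (by omega)
  have hfin : Module.Finite F L := Module.Finite.of_finite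
  have hconj : ∀ g x : V ≃ₗ[F] V, LinearMap.charpoly ((g * x * g⁻¹ : V ≃ₗ[F] V) : V →ₗ[F] V) =
      LinearMap.charpoly (x : V →ₗ[F] V) := fun g x => by
    rw [coe_conj, LinearEquiv.charpoly_conj]
  have hmain := card_mul_le e (fun x => Irr x ⊤ ∧ LinearMap.charpoly (x : V →ₗ[F] V) ≠
    (LinearMap.charpoly (x⁻¹ : V ≃ₗ[F] V).toLinearMap).map σ) (by
    rintro g x ⟨h2, h3⟩
    refine ⟨irr_conj g h2, ?_⟩
    have h4 : (g * x * g⁻¹)⁻¹ = g * x⁻¹ * g⁻¹ := by group
    rw [h4, hconj, hconj]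
    exact h3)
  rw [hfr, hd] at hmain
  obtain ⟨s, hs, hbad⟩ := card_bad_le e σ hσ
  have hq : 1 < Nat.card F := Finite.one_lt_card
  set q := Nat.card F with hqdef
  have hLcard : Nat.card L = q ^ d := by
    rw [Module.natCard_eq_pow_finrank (K := F) (V := L), hfr, hd]
  rw [hLcard] at hs
  have hfinu : Fintype Lˣ := Fintype.ofFinite _
  have hall := card_le_gen F L (fun _ : Lˣ => True)
  rw [hfr, hd, ← hqdef] at hall
  set S := ∑ e ∈ Finset.Icc 1 (d / 2), (q ^ e - 1) with hS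
  have hS2 : S ≤ 2 * q ^ (d / 2) := geom_le' q (d / 2) hq
  set T := Nat.card Lˣ with hT
  have hTcard : T = q ^ d - 1 := by rw [hT, Nat.card_units, hLcard]
  have hqd : 1 < q ^ d := Nat.one_lt_pow (by omega) hq
  have hT0 : 0 < T := by omega
  have hTt : Nat.card {t : Lˣ // True} = T := Nat.card_congr (Equiv.subtypeUnivEquiv fun _ => trivial)
  rw [hTt] at hall
  set B := Nat.card {t : Lˣ // Algebra.adjoin F {(t : L)} = ⊤ ∧ Irr (mu e t) ⊤ ∧
    LinearMap.charpoly (mu e t : V →ₗ[F] V) ≠ (LinearMap.charpoly ((mu e t)⁻¹ : V ≃ₗ[F] V).toLinearMap).map σ} with hB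
  have hsplit : Nat.card {t : Lˣ // Algebra.adjoin F {(t : L)} = ⊤ ∧ True} ≤ B + (s + 3) := by
    refine le_trans ?_ (Nat.add_le_add_left hbad B)
    rw [hB]
    simp only [Nat.card_eq_fintype_card, Fintype.card_subtype]
    refine le_trans (Finset.card_le_card ?_) (Finset.card_union_le _ _)
    intro t ht
    rw [Finset.mem_filter] at ht
    rw [Finset.mem_union, Finset.mem_filter, Finset.mem_filter]
    by_cases h : LinearMap.charpoly (mu e t : V →ₗ[F] V) =
        (LinearMap.charpoly ((mu e t)⁻¹ : V ≃ₗ[F] V).toLinearMap).map σ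
    · exact Or.inr ⟨Finset.mem_univ _, ht.2.1, h⟩
    · exact Or.inl ⟨Finset.mem_univ _, ht.2.1, irr_mu e ht.2.1, h⟩
  have hT1 : T ≤ B + 2 * q ^ (d / 2) + s + 3 := by omega
  set I := Nat.card {x : V ≃ₗ[F] V // Irr x ⊤ ∧
      LinearMap.charpoly (x : V →ₗ[F] V) ≠ (LinearMap.charpoly (x⁻¹ : V ≃ₗ[F] V).toLinearMap).map σ} with hI
  set G := Nat.card (V ≃ₗ[F] V) with hG
  have hreal := real_ineq q d s hq h1 hs
  have hTr : (T : ℝ) = (q : ℝ) ^ d - 1 := by
    rw [hTcard, Nat.cast_sub hqd.le]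
    push_cast
    ring
  rw [← hTr] at hreal
  have hT1' : (T : ℝ) ≤ B + 2 * q ^ (d / 2) + s + 3 := by exact_mod_cast hT1
  have har : ar d * T ≤ B := by
    rw [ar, sub_mul, one_mul]
    linarith
  have hmain' : (G : ℝ) * B ≤ d * T * I := by exact_mod_cast hmain
  have hT0' : (0 : ℝ) < T := by exact_mod_cast hT0
  have hd0 : (0 : ℝ) < d := by exact_mod_cast h1
  have hG0 : (0 : ℝ) ≤ G := by positivity
  rw [div_mul_eq_mul_div, div_le_iff₀ hd0]
  apply le_of_mul_le_mul_right _ hT0'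
  calc ar d * G * T = G * (ar d * T) := by ring
    _ ≤ G * B := mul_le_mul_of_nonneg_left har hG0
    _ ≤ d * T * I := hmain'
    _ = I * d * T := by ring

/-- irreducible elements -/
theorem gl_irr (F V : Type*) [Field F] [Finite F] [AddCommGroup V] [Module F V] [Module.Finite F V] {d : ℕ}
    (hd : Module.finrank F V = d) (h1 : 1 ≤ d) :
    ar d / d * Nat.card (V ≃ₗ[F] V) ≤ Nat.card {x : V ≃ₗ[F] V // Irr x ⊤} := by
  refine (gl_irr_ns F V hd h1 (RingHom.id F) (fun _ => rfl)).trans ?_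
  have hV : Finite V := Module.finite_of_finite F
  have hA : Finite (V ≃ₗ[F] V) := Finite.of_injective (fun g : V ≃ₗ[F] V => (g : V → V)) DFunLike.coe_injective
  exact_mod_cast Nat.card_mono (s := {x : V ≃ₗ[F] V | Irr x ⊤ ∧ LinearMap.charpoly (x : V →ₗ[F] V) ≠
      (LinearMap.charpoly (x⁻¹ : V ≃ₗ[F] V).toLinearMap).map (RingHom.id F)}) (t := {x : V ≃ₗ[F] V | Irr x ⊤})
    (Set.toFinite _) (fun x hx => hx.1)

end Main

end Cfsg.Agent.H46.Bs
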