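import Mathlib
import Cfsg.Agent.H847.Bs.Defs

/-!
# S5733, BS05: the Singer cycle

`e : V ≃ₗ[F] L` identifies the `F`-space `V` with the field `L ⊇ F`; `mu e t` is the multiplication by `t : Lˣ`.

* `irr_mu` : `mu e t` is irreducible if `t` generates `L`;
* `exists_of_conj` : the elements which conjugate a generator into the Singer cycle;
* `card_mul_le` : for a class `P` of automorphisms, `|GL(V)| |{t : t generates L, P (mu e t)}| ≤ d |Lˣ| |{x : P x}|`.
-/

set_option autoImplicit false

namespace Cfsg.Agent.H46.Bs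

open Cfsg.Agent.H847.Bs

section Singer

variable {F V L : Type*} [Field F] [AddCommGroup V] [Module F V] [Field L] [Algebra F L] (e : V ≃ₗ[F] L)

/-- multiplication by `t` on `L` -/
def mL (F : Type*) {L : Type*} [Field F] [Field L] [Algebra F L] (t : Lˣ) : L ≃ₗ[F] L where
  toFun x := t * x
  invFun x := ↑(t⁻¹) * x
  left_inv x := by simp
  right_inv x := by simp
  map_add' x y := mul_add _ _ _
  map_smul' a x := by simp

@[simp] theorem mL_apply (t : Lˣ) (x : L) : mL F t x = t * x := rfl

/-- the Singer cycle on `V` -/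
def mu (t : Lˣ) : V ≃ₗ[F] V := (e.trans (mL F t)).trans e.symm

@[simp] theorem e_mu (t : Lˣ) (v : V) : e (mu e t v) = t * e v := by simp [mu]

/-- field automorphisms acting on `V` -/
def au (σ : L ≃ₐ[F] L) : V ≃ₗ[F] V := (e.trans σ.toLinearEquiv).trans e.symm

@[simp] theorem e_au (σ : L ≃ₐ[F] L) (v : V) : e (au e σ v) = σ (e v) := by simp [au]

theorem mu_mul (s t : Lˣ) : mu e (s * t) = mu e s * mu e t := by
  ext v
  apply e.injective
  rw [LinearEquiv.mul_apply, e_mu, e_mu, e_mu, Units.val_mul, mul_assoc]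

theorem mu_one : mu e (1 : Lˣ) = 1 := by
  ext v
  apply e.injective
  rw [e_mu]
  simp

theorem mu_inv (t : Lˣ) : (mu e t)⁻¹ = mu e t⁻¹ := by
  rw [inv_eq_iff_mul_eq_one, ← mu_mul, mul_inv_cancel, mu_one]

theorem irr_mu {t : Lˣ} (ht : Algebra.adjoin F {(t : L)} = ⊤) : Irr (mu e t) ⊤ := by
  have hne : (⊤ : Submodule F V) ≠ ⊥ := by
    intro h
    have h1 : e.symm 1 ∈ (⊤ : Submodule F V) := Submodule.mem_top
    rw [h, Submodule.mem_bot, LinearEquiv.map_eq_zero_iff] at h1
    exact one_ne_zero h1
  refine ⟨fun v _ => Submodule.mem_top, hne, fun Y _ hY => ?_⟩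
  by_cases h0 : Y = ⊥
  · exact Or.inl h0
  · right
    obtain ⟨y, hy, hy0⟩ := Submodule.exists_mem_ne_zero_of_ne_bot h0
    -- `Y` is stable under `L`
    have hS : ∀ a : L, ∀ v ∈ Y, e.symm (a * e v) ∈ Y := by
      intro a
      have ha : a ∈ Algebra.adjoin F {(t : L)} := by rw [ht]; exact Algebra.mem_top
      induction ha using Algebra.adjoin_induction with
      | mem x hx =>
        intro v hv
        rw [Set.mem_singleton_iff] at hx
        have := hY v hv
        rw [hx]
        have h2 : e.symm (t * e v) = mu e t v := by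
          apply e.injective
          rw [e_mu, LinearEquiv.apply_symm_apply]
        rw [h2]
        exact this
      | algebraMap r =>
        intro v hv
        rw [← Algebra.smul_def, map_smul, LinearEquiv.symm_apply_apply]
        exact Y.smul_mem _ hv
      | add x y _ _ hx hy =>
        intro v hv
        rw [add_mul, map_add]
        exact Y.add_mem (hx v hv) (hy v hv)
      | mul x y _ _ hx hy =>
        intro v hv
        have := hx _ (hy v hv)
        rwa [LinearEquiv.apply_symm_apply, ← mul_assoc] at this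
    refine le_antisymm le_top fun v _ => ?_
    have hey : e y ≠ 0 := by simpa using hy0
    have := hS (e v * (e y)⁻¹) y hy
    rwa [mul_assoc, inv_mul_cancel₀ hey, mul_one, LinearEquiv.symm_apply_apply] at this

/-- elements which map a generator of `L` into the Singer cycle -/
theorem exists_of_conj [Finite L] {t t₀ : Lˣ} (ht : Algebra.adjoin F {(t : L)} = ⊤) {h : V ≃ₗ[F] V}
    (hh : h * mu e t = mu e t₀ * h) : ∃ (σ : L ≃ₐ[F] L) (u : Lˣ), h = mu e u * au e σ ∧ σ t = t₀ := by
  -- transport to `L`
  set k : L → L := fun x => e (h (e.symm x)) with hk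
  have kadd : ∀ x y, k (x + y) = k x + k y := fun x y => by simp [hk]
  have ksmul : ∀ (a : F) x, k (algebraMap F L a * x) = algebraMap F L a * k x := fun a x => by
    simp only [hk]
    rw [← Algebra.smul_def, map_smul, map_smul, map_smul, Algebra.smul_def]
  have kt : ∀ x, k (t * x) = t₀ * k x := fun x => by
    have := congrArg (fun g : V ≃ₗ[F] V => e (g (e.symm x))) hh
    simp only [LinearEquiv.mul_apply, e_mu] at this
    rw [← this]
    simp only [hk]
    congr 2
    apply e.injective
    rw [e_mu, LinearEquiv.apply_symm_apply, LinearEquiv.apply_symm_apply]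
  have kinj : Function.Injective k := fun x y hxy => by
    have := e.injective hxy
    exact e.symm.injective (h.injective this)
  have k0 : k 0 = 0 := by simp [hk]
  have hu : k 1 ≠ 0 := fun h1 => one_ne_zero (kinj (h1.trans k0.symm))
  have hS : ∀ x y, k (x * y) * k 1 = k x * k y := by
    intro x
    have ha : x ∈ Algebra.adjoin F {(t : L)} := by rw [ht]; exact Algebra.mem_top
    induction ha using Algebra.adjoin_induction with
    | mem x hx =>
      intro y
      rw [Set.mem_singleton_iff] at hx
      have h1 : k t = t₀ * k 1 := by rw [← kt 1, mul_one]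
      rw [hx, kt, h1]
      ring
    | algebraMap r =>
      intro y
      have h1 : k (algebraMap F L r) = algebraMap F L r * k 1 := by rw [← ksmul r 1, mul_one]
      rw [ksmul, h1]
      ring
    | add x x' _ _ hx hx' =>
      intro y
      rw [add_mul, kadd, kadd, add_mul, add_mul, hx, hx']
    | mul x x' _ _ hx hx' =>
      intro y
      apply mul_right_cancel₀ hu
      rw [mul_assoc x x' y, hx (x' * y), mul_assoc, hx' y, ← mul_assoc, ← hx x']
      ring
  let σ₀ : L →ₐ[F] L :=
    { toFun := fun x => k x * (k 1)⁻¹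
      map_one' := mul_inv_cancel₀ hu
      map_mul' := fun x y => by
        have := hS x y
        field_simp
        exact this
      map_zero' := by rw [k0, zero_mul]
      map_add' := fun x y => by rw [kadd, add_mul]
      commutes' := fun a => by
        have h1 : k (algebraMap F L a) = algebraMap F L a * k 1 := by rw [← ksmul a 1, mul_one]
        rw [h1, mul_assoc, mul_inv_cancel₀ hu, mul_one] }
  have hbij : Function.Bijective σ₀ := Finite.injective_iff_bijective.1 σ₀.toRingHom.injective
  let σ : L ≃ₐ[F] L := AlgEquiv.ofBijective σ₀ hbij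
  refine ⟨σ, Units.mk0 (k 1) hu, ?_, ?_⟩
  · ext v
    apply e.injective
    rw [LinearEquiv.mul_apply, e_mu, e_au, Units.val_mk0]
    show e (h v) = k 1 * (k (e v) * (k 1)⁻¹)
    have h1 : k (e v) = e (h v) := by simp [hk]
    rw [h1]
    field_simp
  · show k t * (k 1)⁻¹ = t₀
    have h1 : k t = t₀ * k 1 := by rw [← kt 1, mul_one]
    rw [h1, mul_assoc, mul_inv_cancel₀ hu, mul_one]

/-- The count: `P` is a conjugation invariant class. -/
theorem card_mul_le [Finite L] (P : (V ≃ₗ[F] V) → Prop) (hP : ∀ g x, P x → P (g * x * g⁻¹)) :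
    Nat.card (V ≃ₗ[F] V) * Nat.card {t : Lˣ // Algebra.adjoin F {(t : L)} = ⊤ ∧ P (mu e t)} ≤
      Module.finrank F L * Nat.card Lˣ * Nat.card {x : V ≃ₗ[F] V // P x} := by
  classical
  have hfV : Finite V := Finite.of_equiv L e.symm.toEquiv
  have hfA : Finite (V ≃ₗ[F] V) := Finite.of_injective (fun g : V ≃ₗ[F] V => (g : V → V)) DFunLike.coe_injective
  have hfG : Finite (L ≃ₐ[F] L) := Finite.of_injective (fun g : L ≃ₐ[F] L => (g : L → L)) DFunLike.coe_injective
  have hfF : Finite F := Finite.of_injective (algebraMap F L) (algebraMap F L).injective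
  have hfin : Module.Finite F L := Module.Finite.of_finite
  set E := {t : Lˣ // Algebra.adjoin F {(t : L)} = ⊤ ∧ P (mu e t)} with hE
  by_cases hne : Nonempty E
  · have := hne
    let φ : (V ≃ₗ[F] V) × E → {x : V ≃ₗ[F] V // P x} := fun p => ⟨p.1 * mu e p.2.1 * p.1⁻¹, hP _ _ p.2.2.2⟩
    let ψ : {x : V ≃ₗ[F] V // P x} → (V ≃ₗ[F] V) × E := Function.invFun φ
    have key : ∀ p : (V ≃ₗ[F] V) × E, ∃ q : (L ≃ₐ[F] L) × Lˣ × {x : V ≃ₗ[F] V // P x},
        p.1 = (ψ q.2.2).1 * (mu e q.2.1 * au e q.1) ∧ ((p.2.1 : Lˣ) : L) = q.1.symm ((ψ q.2.2).2.1 : L) := by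
      rintro ⟨g, t⟩
      set y := φ (g, t) with hy
      have h1 : φ (ψ y) = y := Function.invFun_eq ⟨(g, t), rfl⟩
      set g₀ := (ψ y).1 with hg₀
      set t₀ := (ψ y).2 with ht₀
      have h2 : g₀ * mu e t₀.1 * g₀⁻¹ = g * mu e t.1 * g⁻¹ := by
        have := congrArg Subtype.val h1
        exact this
      have h3 : (g₀⁻¹ * g) * mu e t.1 = mu e t₀.1 * (g₀⁻¹ * g) := by
        have h4 : g₀⁻¹ * (g₀ * mu e t₀.1 * g₀⁻¹) * g = g₀⁻¹ * (g * mu e t.1 * g⁻¹) * g := by rw [h2]
        simp only [mul_assoc, inv_mul_cancel_left, inv_mul_cancel, mul_one] at h4 ⊢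
        exact h4.symm
      obtain ⟨σ, u, h5, h6⟩ := exists_of_conj e t.2.1 h3
      refine ⟨(σ, u, y), ?_, ?_⟩
      · show g = g₀ * (mu e u * au e σ)
        rw [← h5, mul_inv_cancel_left]
      · show ((t.1 : Lˣ) : L) = σ.symm ((t₀.1 : Lˣ) : L)
        rw [← h6, AlgEquiv.symm_apply_apply]
    choose f hf1 hf2 using key
    have hinj : Function.Injective f := by
      intro p p' hpp
      have h1 := hf1 p
      have h1' := hf1 p'
      have h2 := hf2 p
      have h2' := hf2 p'
      rw [hpp] at h1 h2
      refine Prod.ext (h1.trans h1'.symm) (Subtype.ext (Units.ext (h2.trans h2'.symm)))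
    have hcard := Nat.card_le_card_of_injective f hinj
    rw [Nat.card_prod, Nat.card_prod, Nat.card_prod] at hcard
    have hgal : Nat.card (L ≃ₐ[F] L) ≤ Module.finrank F L := by
      have : IsGalois F L := inferInstance
      exact (IsGalois.card_aut_eq_finrank F L).le
    calc _ ≤ Nat.card (L ≃ₐ[F] L) * (Nat.card Lˣ * Nat.card {x : V ≃ₗ[F] V // P x}) := hcard
      _ ≤ Module.finrank F L * (Nat.card Lˣ * Nat.card {x : V ≃ₗ[F] V // P x}) := Nat.mul_le_mul_right _ hgal
      _ = _ := (mul_assoc _ _ _).symm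
  · rw [not_nonempty_iff] at hne
    have := hne
    rw [Nat.card_of_isEmpty (α := E), mul_zero]
    exact Nat.zero_le _

end Singer

end Cfsg.Agent.H46.Bs
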